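import Cfsg.Agent.Depth.L.Tw

/-!
# Depth (S5768), main term: Abel summation over cells, in a form the kernel evaluates (helper72)
-/

set_option autoImplicit false

namespace Cfsg.Agent.Depth.M

open Finset

/-- evaluate `n` first -/
noncomputable def frc (n : ℕ) (f : ℕ → ℕ) : ℕ := Nat.rec (f 0) (fun m _ => f (Nat.succ m)) n

theorem frc_eq (n : ℕ) (f : ℕ → ℕ) : frc n f = f n := by cases n <;> rfl

/-- `∑ g (f l) + d ∑ (l + 1) (f (l + 1) - f l)⁺` over `a ≤ l < a + n`, with the boundary terms -/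
noncomputable def wr (d : ℕ) (g f : ℕ → ℕ) (a n : ℕ) : ℕ → ℕ :=
  Nat.rec (fun nx => Nat.mul d (Nat.mul a nx))
    (fun i ih nx => frc (f (Nat.add a i)) fun x =>
      Nat.add (Nat.add (Nat.mul (Nat.mul d (Nat.succ (Nat.add a i))) (Nat.sub nx x)) (g x)) (ih x)) n

theorem wr_zero (d : ℕ) (g f : ℕ → ℕ) (a nx : ℕ) : wr d g f a 0 nx = d * (a * nx) := rfl

theorem wr_succ (d : ℕ) (g f : ℕ → ℕ) (a n nx : ℕ) : wr d g f a (n + 1) nx =
    d * (a + n + 1) * (nx - f (a + n)) + g (f (a + n)) + wr d g f a n (f (a + n)) :=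
  frc_eq (f (a + n)) fun x => d * (a + n + 1) * (nx - x) + g x + wr d g f a n x

theorem abel {D : ℕ → ℝ} {d a : ℕ} (g f : ℕ → ℕ) (hD : ∀ l, a ≤ l → 0 ≤ D l ∧ D l ≤ d * l) (n : ℕ) : ∀ nx : ℕ,
    ∑ i ∈ range n, ((g (f (a + i)) : ℝ) - f (a + i) * (D (a + i + 1) - D (a + i))) + nx * D (a + n) ≤
      wr d g f a n nx := by
  induction n with
  | zero =>
    intro nx
    have h := mul_le_mul_of_nonneg_left (hD a le_rfl).2 (Nat.cast_nonneg (α := ℝ) nx)
    rw [wr_zero, sum_range_zero, add_zero]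
    push_cast
    linarith
  | succ n ih =>
    intro nx
    have h1 := ih (f (a + n))
    obtain ⟨h2, h3⟩ := hD (a + n + 1) (by omega)
    have h4 : ((nx : ℝ) - f (a + n)) * D (a + n + 1) ≤ d * (a + n + 1 : ℕ) * ((nx - f (a + n) : ℕ) : ℝ) := by
      rcases le_total nx (f (a + n)) with h | h
      · have h5 : (nx : ℝ) ≤ f (a + n) := by exact_mod_cast h
        rw [Nat.sub_eq_zero_of_le h, Nat.cast_zero, mul_zero]
        exact mul_nonpos_of_nonpos_of_nonneg (by linarith) h2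
      · have h5 : (f (a + n) : ℝ) ≤ nx := by exact_mod_cast h
        rw [Nat.cast_sub h, mul_comm]
        exact mul_le_mul_of_nonneg_right h3 (by linarith)
    rw [wr_succ, sum_range_succ, ← add_assoc a n 1]
    push_cast at h4 ⊢
    linarith

/-- lower bound for `∑ f l (T (l + 1) - T l)` -/
noncomputable def lowS (lo d : ℕ) (f : ℕ → ℕ) (a K n : ℕ) : ℕ :=
  Nat.sub (Nat.mul lo (Nat.mul n K)) (wr d (fun x => Nat.mul lo (Nat.sub K x)) f a n 0)

/-- upper bound for `∑ f l (T (l + 1) - T l)` -/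
noncomputable def upS (lo d : ℕ) (f : ℕ → ℕ) (a n : ℕ) : ℕ := wr d (fun x => Nat.mul (Nat.add lo d) x) f a n 0

theorem lowS_le {T : ℕ → ℝ} {lo d a : ℕ} (f : ℕ → ℕ) (K n : ℕ)
    (hT : ∀ l, a ≤ l → lo * l ≤ T l ∧ T l ≤ (lo + d) * l) (hm : ∀ l, T l ≤ T (l + 1)) :
    (lowS lo d f a K n : ℝ) ≤ ∑ i ∈ range n, f (a + i) * (T (a + i + 1) - T (a + i)) := by
  have h1 := abel (D := fun l => T l - lo * l) (d := d) (a := a) (fun x => lo * (K - x)) f
    (fun l hl => ⟨by linarith [(hT l hl).1], by linarith [(hT l hl).2]⟩) n 0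
  have h2 : ∑ i ∈ range n, ((lo : ℝ) * K - f (a + i) * (T (a + i + 1) - T (a + i))) ≤
      ∑ i ∈ range n, (((lo * (K - f (a + i)) : ℕ) : ℝ) -
        f (a + i) * ((T (a + i + 1) - lo * (a + i + 1 : ℕ)) - (T (a + i) - lo * (a + i : ℕ)))) := by
    refine sum_le_sum fun i _ => ?_
    have h3 : (K : ℝ) - f (a + i) ≤ ((K - f (a + i) : ℕ) : ℝ) := by
      have : K ≤ K - f (a + i) + f (a + i) := by omega
      have h4 : (K : ℝ) ≤ ((K - f (a + i) : ℕ) : ℝ) + f (a + i) := by exact_mod_cast this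
      linarith
    have h4 := mul_le_mul_of_nonneg_left h3 (Nat.cast_nonneg (α := ℝ) lo)
    push_cast
    linarith
  rw [sum_sub_distrib, sum_const, card_range, nsmul_eq_mul] at h2
  change ((lo * (n * K) - wr d (fun x => lo * (K - x)) f a n 0 : ℕ) : ℝ) ≤ _
  rcases le_total (lo * (n * K)) (wr d (fun x => lo * (K - x)) f a n 0) with h | h
  · rw [Nat.sub_eq_zero_of_le h, Nat.cast_zero]
    exact sum_nonneg fun i _ => mul_nonneg (Nat.cast_nonneg _) (sub_nonneg.2 (hm _))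
  · rw [Nat.cast_sub h]
    rw [Nat.cast_zero, zero_mul, add_zero] at h1
    push_cast at h1 h2 ⊢
    linarith

theorem le_upS {T : ℕ → ℝ} {lo d a : ℕ} (f : ℕ → ℕ) (n : ℕ)
    (hT : ∀ l, a ≤ l → lo * l ≤ T l ∧ T l ≤ (lo + d) * l) :
    ∑ i ∈ range n, f (a + i) * (T (a + i + 1) - T (a + i)) ≤ (upS lo d f a n : ℝ) := by
  have h1 := abel (D := fun l => (lo + d) * l - T l) (d := d) (a := a) (fun x => (lo + d) * x) f
    (fun l hl => ⟨by linarith [(hT l hl).2], by linarith [(hT l hl).1]⟩) n 0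
  rw [Nat.cast_zero, zero_mul, add_zero] at h1
  refine le_trans (le_of_eq (sum_congr rfl fun i _ => ?_)) h1
  push_cast
  ring

/-- sums over cells of length `H` -/
theorem cell (lam F : ℕ → ℝ) {H : ℕ} (a n : ℕ) :
    ∑ u ∈ Ico (a * H) ((a + n) * H), F (u / H) * lam u =
      ∑ i ∈ range n, F (a + i) * (∑ u ∈ range ((a + i + 1) * H), lam u - ∑ u ∈ range ((a + i) * H), lam u) := by
  induction n with
  | zero => simp
  | succ n ih =>
    have h1 : a * H ≤ (a + n) * H := Nat.mul_le_mul_right H (by omega)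
    have h2 : (a + n) * H ≤ (a + n + 1) * H := Nat.mul_le_mul_right H (by omega)
    rw [sum_range_succ, ← ih, ← add_assoc a n 1, ← sum_Ico_consecutive _ h1 h2, ← sum_Ico_eq_sub _ h2, mul_sum]
    congr 1
    refine sum_congr rfl fun u hu => ?_
    rw [Nat.div_eq_of_lt_le (mem_Ico.1 hu).1 (mem_Ico.1 hu).2]

/-- the logarithm on the primes of the class `c` -/
noncomputable def lp (c u : ℕ) : ℝ := if (60 * u + c).Prime then Real.log (60 * u + c) else 0

theorem lp_nonneg (c u : ℕ) : 0 ≤ lp c u := by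
  unfold lp
  split_ifs with h
  · have h1 : (1 : ℝ) ≤ (60 * u + c : ℕ) := by exact_mod_cast h.one_le
    push_cast at h1
    exact Real.log_nonneg h1
  · exact le_rfl

theorem aw_eq (c : ℕ) (w : ℕ → ℝ) (u : ℕ) : aw c w u = w u * lp c u := by
  unfold aw lp
  split_ifs
  · rfl
  · rw [mul_zero]

theorem sum_lp {c : ℕ} (h0 : 0 < c) (hc : c < 60) (t : ℕ) : ∑ u ∈ range t, lp c u = th 60 c (60 * t) := by
  have h1 : ⌊(60 * t : ℝ)⌋₊ = 60 * t := by exact_mod_cast Nat.floor_natCast (R := ℝ) (60 * t)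
  unfold lp th
  rw [← sum_filter, h1]
  refine sum_bij (fun u _ => 60 * u + c) (fun u hu => ?_) (fun a _ b _ h => by omega) (fun p hp => ?_) fun u _ => ?_
  · obtain ⟨h2, h3⟩ := mem_filter.1 hu
    have h4 := mem_range.1 h2
    exact mem_filter.2 ⟨mem_Icc.2 ⟨by omega, by omega⟩, h3, by omega⟩
  · obtain ⟨h2, h3, h4⟩ := mem_filter.1 hp
    have h5 := (mem_Icc.1 h2).2
    have h6 : 60 * (p / 60) + c = p := by omega
    exact ⟨p / 60, mem_filter.2 ⟨mem_range.2 (by omega), by rwa [h6]⟩, h6⟩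
  · push_cast
    rfl

end Cfsg.Agent.Depth.M
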