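import Cfsg.Agent.Depth.M.Abel

/-!
# Depth (S5768), main term: the cell model with `800` cells and its kernel checks (helper72)
-/

set_option autoImplicit false

namespace Cfsg.Agent.Depth.M

/-- the weight on the cell `l`, scaled by `60000` -/
noncomputable def et (l : ℕ) : ℕ :=
  frc (Nat.add (Nat.mul 20 l) 10) fun x => Nat.sub 60000
    (Nat.div (Nat.mul 60000 (Nat.pow (Nat.add (Nat.sub x 6767) (Nat.sub 6767 x)) 5)) 12297278894166245376)

/-- lower bound for the trapezoid on the cells `k + l = n`, scaled by `60000` -/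
noncomputable def vv (p0 p1 n : ℕ) : ℕ :=
  frc (Nat.sub 800 n) fun m => frc (Nat.sub (Nat.div (Nat.mul 60000000 (Nat.sub m 2)) p1) 18001) fun x =>
    frc (Nat.sub 317998 (Nat.div (Nat.mul 60000 (Nat.add (Nat.mul 1000 m) 1)) p0)) fun y =>
      frc (Nat.sub x (Nat.sub x y)) fun z => Nat.sub z (Nat.sub z 60000)

/-- the inner sum -/
noncomputable def hh (lo d p0 p1 k : ℕ) : ℕ :=
  frc k fun k => frc (Nat.add 10 (Nat.sub 545 k)) fun a =>
    lowS lo d (fun l => frc l fun l => Nat.mul (et l) (vv p0 p1 (Nat.add k l))) a 3600000000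
      (Nat.sub (Nat.sub 668 (Nat.sub k 122)) a)

/-- the double sum -/
noncomputable def zz (lo d p0 p1 : ℕ) : ℕ :=
  lowS lo d (fun k => Nat.mul (et k) (hh lo d p0 p1 k)) 10 64800000000000000000 658

/-- upper bound for `10⁴ (52 + log ((k + 1) / 800))` -/
noncomputable def lg (k : ℕ) : ℕ :=
  frc (Nat.log2 (Nat.div 1131 (Nat.add k 1))) fun j =>
    Nat.add (Nat.sub 510001 (Nat.mul 6931 j)) (Nat.div (Nat.mul (Nat.mul (Nat.pow 2 j) (Nat.add k 1)) 25) 2)

/-- the unit -/
def EU : ℕ := 1794000000000

theorem chk1 : Nat.ble (upS 982 37 (fun k => Nat.mul (et k) (et k)) 10 658) (1026 * EU) = true := by decide +kernel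

theorem chk0 : Nat.ble (upS 982 37 (fun k => Nat.mul (Nat.mul (et k) (et k)) (lg k)) 10 658) (524520000 * EU) = true := by
  decide +kernel

/-- the check for one cell of the scale parameter -/
noncomputable def okC (p0 p1 : ℕ) : Bool := Nat.ble (201600000 * p1 * EU) (zz 982 37 p0 p1)

theorem okC0 : okC 42080 42570 = true := by decide +kernel

theorem okC1 : okC 42570 43060 = true := by decide +kernel

theorem okC2 : okC 43060 43550 = true := by decide +kernel

theorem okC3 : okC 43550 44040 = true := by decide +kernel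

theorem okC4 : okC 44040 44530 = true := by decide +kernel

theorem okC5 : okC 44530 45020 = true := by decide +kernel

theorem okC6 : okC 45020 45510 = true := by decide +kernel

theorem okC7 : okC 45510 46000 = true := by decide +kernel

theorem exists_cell {X H : ℕ} (h0 : 42080 * H ≤ X) (h1 : X ≤ 46000 * H) :
    ∃ p0 p1, p0 * H ≤ X ∧ X ≤ p1 * H ∧ 0 < p0 ∧ 0 < p1 ∧ okC p0 p1 = true := by
  rcases le_total X (42570 * H) with h | h0
  · exact ⟨_, _, h0, h, by norm_num, by norm_num, okC0⟩
  rcases le_total X (43060 * H) with h | h0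
  · exact ⟨_, _, h0, h, by norm_num, by norm_num, okC1⟩
  rcases le_total X (43550 * H) with h | h0
  · exact ⟨_, _, h0, h, by norm_num, by norm_num, okC2⟩
  rcases le_total X (44040 * H) with h | h0
  · exact ⟨_, _, h0, h, by norm_num, by norm_num, okC3⟩
  rcases le_total X (44530 * H) with h | h0
  · exact ⟨_, _, h0, h, by norm_num, by norm_num, okC4⟩
  rcases le_total X (45020 * H) with h | h0
  · exact ⟨_, _, h0, h, by norm_num, by norm_num, okC5⟩
  rcases le_total X (45510 * H) with h | h0
  · exact ⟨_, _, h0, h, by norm_num, by norm_num, okC6⟩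
  exact ⟨_, _, h0, h1, by norm_num, by norm_num, okC7⟩

end Cfsg.Agent.Depth.M
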