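import Cfsg.Agent.Depth.M.Chk

/-!
# Depth (S5768): the main term and the energy, `mainBox` (helper72)
-/

set_option autoImplicit false

namespace Cfsg.Agent.Depth.M

open Finset

theorem et_eq (l : ℕ) :
    et l = 60000 - 60000 * ((20 * l + 10 - 6767) + (6767 - (20 * l + 10))) ^ 5 / 12297278894166245376 :=
  frc_eq _ _

theorem et_supp {l : ℕ} (h : et l ≠ 0) : 10 ≤ l ∧ l < 668 := by
  by_contra h1
  apply h
  have h2 : 6576 ≤ (20 * l + 10 - 6767) + (6767 - (20 * l + 10)) := by omega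
  have h3 := Nat.pow_le_pow_left h2 5
  rw [et_eq]
  refine Nat.sub_eq_zero_of_le ((Nat.le_div_iff_mul_le (by norm_num)).2 ?_)
  exact Nat.mul_le_mul_left _ (le_trans (by norm_num) h3)

theorem vv_eq (p0 p1 n : ℕ) : vv p0 p1 n =
    min (min (60000000 * (800 - n - 2) / p1 - 18001) (317998 - 60000 * (1000 * (800 - n) + 1) / p0)) 60000 := by
  have h : ∀ x y : ℕ, min x y = x - (x - y) := fun x y => by omega
  rw [h, h]
  unfold vv
  simp only [frc_eq]
  rfl

theorem hh_eq (lo d p0 p1 k : ℕ) : hh lo d p0 p1 k = lowS lo d (fun l => et l * vv p0 p1 (k + l)) (10 + (545 - k))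
    3600000000 (668 - (k - 122) - (10 + (545 - k))) := by
  unfold hh
  simp only [frc_eq]
  rfl

theorem lg_ge (k : ℕ) : 10000 * (52 + Real.log ((k + 1) / 800)) ≤ lg k := by
  obtain ⟨j, hj⟩ : ∃ j : ℕ, lg k = 510001 - 6931 * j + 2 ^ j * (k + 1) * 25 / 2 := ⟨_, frc_eq _ _⟩
  have h1 : 510001 ≤ 510001 - 6931 * j + 6931 * j := by omega
  have h2 : 2 ^ j * (k + 1) * 25 ≤ 2 * (2 ^ j * (k + 1) * 25 / 2) + 1 := by omega
  have h3 : (510001 : ℝ) ≤ (510001 - 6931 * j : ℕ) + 6931 * j := by exact_mod_cast h1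
  have h4 : (2 : ℝ) ^ j * (k + 1) * 25 ≤ 2 * (2 ^ j * (k + 1) * 25 / 2 : ℕ) + 1 := by exact_mod_cast h2
  have h5 : (0 : ℝ) < (k + 1) / 800 := by positivity
  have h6 := Real.log_le_sub_one_of_pos (x := 2 ^ j * ((k + 1) / 800 : ℝ)) (by positivity)
  rw [Real.log_mul (by positivity) h5.ne', Real.log_pow] at h6
  have h7 := mul_le_mul_of_nonneg_left Real.log_two_gt_d9.le (Nat.cast_nonneg (α := ℝ) j)
  have h8 : (0 : ℝ) ≤ j := Nat.cast_nonneg j
  rw [hj, Nat.cast_add]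
  linarith

theorem Yw_ge (s : ℕ) : 60000 ≤ Yw s := by
  have h : 92 ≤ kk s := by
    rcases Nat.lt_or_ge s 8 with h | h
    · interval_cases s <;> decide
    · unfold kk
      rw [List.getD_eq_default _ _ h]
  unfold Yw
  omega

theorem min_three {A B q : ℕ} (h : q = min (min (A - 18001) (317998 - B)) 60000) (hq : q ≠ 0) :
    q + 18001 ≤ A ∧ B < 317999 - q ∧ q ≤ 60000 := by omega

theorem vv_facts {p0 p1 n q : ℕ} (hp0 : 0 < p0) (h : q = vv p0 p1 n) (hq : q ≠ 0) : ∃ m r, 800 = n + 2 + m ∧ q ≤ 60000 ∧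
    r + q = 317999 ∧ (q + 18001) * p1 ≤ 60000000 * m ∧ 60000 * (1000 * (m + 2) + 1) ≤ r * p0 := by
  obtain ⟨a1, a2, a3⟩ := min_three (h.trans (vv_eq p0 p1 n)) hq
  have a4 := (Nat.mul_le_mul_right p1 a1).trans (Nat.div_mul_le_self _ _)
  have a5 := ((Nat.div_lt_iff_lt_mul hp0).1 a2).le
  have a6 : 800 - n - 2 ≠ 0 := by
    intro h0
    rw [h0, mul_zero, Nat.zero_div] at a1
    exact absurd a1 (by simp)
  clear a1 a2 h
  have a7 : 800 - n = 800 - n - 2 + 2 := by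
    clear a4 a5
    omega
  refine ⟨800 - n - 2, 317999 - q, ?_, a3, ?_, a4, by rwa [← a7]⟩
  all_goals
    clear a4 a5
    omega

theorem ramp_le {q Y I i r : ℕ} (hY : 60000 ≤ Y) (hI : 10 * I = 3 * Y) (h3 : q ≤ 60000) (hr : r + q = 317999)
    (d1 : (q + 18001) * Y ≤ 60000 * (i + 2)) (d2 : 60000 * i ≤ r * Y) :
    q * Y ≤ 60000 * min (i + 1 - I) (min Y (I + 5 * Y - 1 - i)) := by
  have d3 : r * Y + q * Y = 317999 * Y := by rw [← add_mul, hr]
  have d4 : q * Y ≤ 60000 * Y := Nat.mul_le_mul_right Y h3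
  rw [add_mul] at d1
  generalize q * Y = a at *
  generalize r * Y = b at *
  omega

theorem cell_y {H N' u v kH lH mH : ℕ} (hH : 799000 ≤ H) (h1 : 800 * H ≤ N') (h2 : N' ≤ 800 * H + 799)
    (hu1 : kH ≤ u) (hv1 : lH ≤ v) (hu2 : u < kH + H) (hv2 : v < lH + H) (a7 : 800 * H = kH + lH + 2 * H + mH) :
    u + v ≤ N' ∧ mH ≤ N' - u - v ∧ 1000 * (N' - u - v) ≤ 1000 * mH + 2001 * H := by omega

/-- the trapezoid on a pair of cells -/
theorem tw_ge {H N' p0 p1 s b e u v : ℕ} (hH : 799000 ≤ H) (h1 : 800 * H ≤ N') (h2 : N' ≤ 800 * H + 799)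
    (hp0 : 0 < p0) (hb0 : p0 * H ≤ 1000 * (b * Yw s)) (hb1 : 1000 * (b * Yw s) ≤ p1 * H) (he : e < b)
    (hq : vv p0 p1 (u / H + v / H) ≠ 0) : u + v ≤ N' ∧ e ≤ N' - u - v ∧
      vv p0 p1 (u / H + v / H) * Yw s ≤ 60000 * tw s ((N' - u - v - e) / b) := by
  have hY := Yw_ge s
  have hI : 10 * Iw s = 3 * Yw s := by
    unfold Iw Yw
    omega
  have hH0 : 0 < H := lt_of_lt_of_le (by norm_num) hH
  have hb : 0 < b := lt_of_le_of_lt (Nat.zero_le e) he
  obtain ⟨m, r, hm, a3, hr, a4, a5⟩ := vv_facts hp0 rfl hq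
  obtain ⟨y0, y1, y2⟩ := cell_y (mH := m * H) hH h1 h2 (Nat.div_mul_le_self u H) (Nat.div_mul_le_self v H)
    (Nat.lt_div_mul_add hH0) (Nat.lt_div_mul_add hH0) (by rw [hm]; ring)
  rw [L.tw_eq]
  generalize vv p0 p1 (u / H + v / H) = q at *
  generalize N' - u - v = y at *
  generalize Yw s = Y at *
  have b1 : (q + 18001) * Y * b ≤ 60000 * y := by
    refine Nat.le_of_mul_le_mul_left ?_ (show 0 < 1000 by norm_num)
    calc 1000 * ((q + 18001) * Y * b) = (q + 18001) * (1000 * (b * Y)) := by ring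
      _ ≤ (q + 18001) * (p1 * H) := Nat.mul_le_mul_left _ hb1
      _ = (q + 18001) * p1 * H := by ring
      _ ≤ 60000000 * m * H := Nat.mul_le_mul_right H a4
      _ = 60000000 * (m * H) := by ring
      _ ≤ 60000000 * y := Nat.mul_le_mul_left _ y1
      _ = 1000 * (60000 * y) := by ring
  have b2 : 60000 * y ≤ r * Y * b := by
    refine Nat.le_of_mul_le_mul_left ?_ (show 0 < 1000 by norm_num)
    calc 1000 * (60000 * y) = 60000 * (1000 * y) := by ring
      _ ≤ 60000 * (1000 * (m * H) + 2001 * H) := Nat.mul_le_mul_left _ y2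
      _ = 60000 * (1000 * (m + 2) + 1) * H := by ring
      _ ≤ r * p0 * H := Nat.mul_le_mul_right H a5
      _ = r * (p0 * H) := by ring
      _ ≤ r * (1000 * (b * Y)) := Nat.mul_le_mul_left _ hb0
      _ = 1000 * (r * Y * b) := by ring
  have b3 : b ≤ y := by
    refine Nat.le_of_mul_le_mul_left (le_trans (Nat.mul_le_mul_right b ?_) b1) (show 0 < 60000 by norm_num)
    exact hY.trans (Nat.le_mul_of_pos_left Y (Nat.succ_pos _))
  have i1 := (Nat.div_mul_le_self (y - e) b).trans (Nat.sub_le y e)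
  have i2 : y ≤ ((y - e) / b + 2) * b := by
    have i3 : y - e < (y - e) / b * b + b := Nat.lt_div_mul_add hb
    rw [add_mul]
    generalize (y - e) / b * b = z at i3 ⊢
    clear * - i3 he
    omega
  refine ⟨y0, he.le.trans b3, ramp_le hY hI a3 hr ?_ ?_⟩
  · refine Nat.le_of_mul_le_mul_right (b1.trans ?_) hb
    rw [mul_assoc]
    exact Nat.mul_le_mul_left _ i2
  · refine Nat.le_of_mul_le_mul_right (le_trans ?_ b2) hb
    rw [mul_assoc]
    exact Nat.mul_le_mul_left _ i1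

theorem nuw_nonneg (c1 s j y : ℕ) : 0 ≤ nuw c1 s j y := by
  unfold nuw Tw
  split_ifs
  · positivity
  · exact le_rfl

theorem nuw_ge {H N' p0 p1 s j c1 u v : ℕ} (hH : 799000 ≤ H) (h1 : 800 * H ≤ N') (h2 : N' ≤ 800 * H + 799)
    (hp0 : 0 < p0) (hb0 : p0 * H ≤ 1000 * ((60 * j + 2) * Yw s)) (hb1 : 1000 * ((60 * j + 2) * Yw s) ≤ p1 * H)
    (hc : c1 < 60) {x : ℝ} (hx : 0 ≤ x) :
    x * (vv p0 p1 (u / H + v / H) / (240 * p1 * H)) ≤ if u + v ≤ N' then x * nuw c1 s j (N' - u - v) else 0 := by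
  by_cases hq : vv p0 p1 (u / H + v / H) = 0
  · rw [hq, Nat.cast_zero, zero_div, mul_zero]
    split_ifs
    · exact mul_nonneg hx (nuw_nonneg _ _ _ _)
    · exact le_rfl
  have he : c1 * j < 60 * j + 2 := by nlinarith
  obtain ⟨a1, a2, a3⟩ := tw_ge hH h1 h2 hp0 hb0 hb1 he hq
  rw [if_pos a1]
  refine mul_le_mul_of_nonneg_left ?_ hx
  unfold nuw Tw
  rw [if_pos a2]
  have hY : (0 : ℝ) < Yw s := by exact_mod_cast (lt_of_lt_of_le (by norm_num) (Yw_ge s))
  have b1 : (vv p0 p1 (u / H + v / H) : ℝ) * Yw s ≤ 60000 * tw s ((N' - u - v - c1 * j) / (60 * j + 2)) := by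
    exact_mod_cast a3
  have b2 : (1000 : ℝ) * ((60 * j + 2) * Yw s) ≤ p1 * H := by exact_mod_cast hb1
  have b3 : (0 : ℝ) < (60 * j + 2) * Yw s := by positivity
  rw [div_le_div_iff₀ (by linarith) (by positivity)]
  have b4 := mul_le_mul b1 b2 (by positivity) (by positivity)
  linarith

theorem scale {N H s j : ℕ} (hH : 10 ^ 18 ≤ H) (h1 : 48000 * H ≤ N) (h2 : N ≤ 48000 * H + 50000) (hs : s < 8)
    (h : InW N s j) :
    42080 * H ≤ 1000 * ((60 * j + 2) * Yw s) ∧ 1000 * ((60 * j + 2) * Yw s) ≤ 46000 * H := by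
  obtain ⟨a1, a2⟩ := h
  unfold BB at a1 a2
  have b1 : rw s * N ≤ 5910000000 * (1000 * (60 * j + 1)) := by
    have : (rw s : ℝ) * N ≤ 5910000000 * (1000 * (60 * j + 1)) := by linarith
    exact_mod_cast this
  have b2 : 5910000000 * (1000 * (60 * j + 1)) ≤ rw (s + 1) * N := by
    have : 5910000000 * (1000 * (60 * j + 1)) ≤ (rw (s + 1) : ℝ) * N := by linarith
    exact_mod_cast this
  unfold Yw
  interval_cases s <;> simp only [rw, kk, List.getD_cons_succ, List.getD_cons_zero] at b1 b2 ⊢ <;> omega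

/-- normalised partial sums at the ends of the cells -/
def TB (H c : ℕ) : Prop := ∀ l : ℕ, 10 ≤ l →
  ((982 : ℕ) : ℝ) * l ≤ ∑ u ∈ range (l * H), lp c u / (3 * H / 800) ∧
    ∑ u ∈ range (l * H), lp c u / (3 * H / 800) ≤ ((982 : ℕ) + (37 : ℕ)) * l

theorem tb_of (h : PP 60 (10 ^ 21) 0.982 1.019) {H c : ℕ} (hH : 2 * 10 ^ 18 ≤ H) (hc : c < 60) (h60 : c.Coprime 60) :
    TB H c := by
  intro l hl
  have h0 : 0 < c := Nat.pos_of_ne_zero (by rintro rfl; norm_num at h60)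
  have h1 : (2 * 10 ^ 18 : ℝ) ≤ H := by exact_mod_cast hH
  have h2 : (10 : ℝ) ≤ l := by exact_mod_cast hl
  have h3 := h c (60 * (l * H : ℕ)) h60 (by push_cast; nlinarith)
  rw [show Nat.totient 60 = 16 by decide +kernel, ← sum_lp h0 hc] at h3
  rw [← sum_div, le_div_iff₀ (by positivity), div_le_iff₀ (by positivity)]
  push_cast at h3 ⊢
  constructor <;> linarith [h3.1, h3.2]

theorem lpn_nonneg (H c u : ℕ) : 0 ≤ lp c u / (3 * H / 800) := div_nonneg (lp_nonneg c u) (by positivity)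

theorem TB.low {H c : ℕ} (h : TB H c) (f : ℕ → ℕ) {a n M : ℕ} (K : ℕ) (ha : 10 ≤ a) (hM : n = 0 ∨ (a + n) * H ≤ M) :
    (lowS 982 37 f a K n : ℝ) ≤ ∑ u ∈ range M, f (u / H) * (lp c u / (3 * H / 800)) := by
  refine (lowS_le (T := fun l => ∑ u ∈ range (l * H), lp c u / (3 * H / 800)) f K n
    (fun l hl => h l (ha.trans hl)) fun l => ?_).trans ?_
  · exact sum_le_sum_of_subset_of_nonneg (range_subset_range.2 (Nat.mul_le_mul_right H (Nat.le_succ l)))
      fun u _ _ => lpn_nonneg H c u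
  · rw [← cell (fun u => lp c u / (3 * H / 800)) (fun k => (f k : ℝ)) a n]
    refine sum_le_sum_of_subset_of_nonneg (fun u hu => mem_range.2 ?_)
      fun u _ _ => mul_nonneg (Nat.cast_nonneg _) (lpn_nonneg H c u)
    have h1 := mem_Ico.1 hu
    rcases hM with rfl | hM
    · rw [add_zero] at h1
      omega
    · omega

theorem TB.up {H c : ℕ} (h : TB H c) (hH : 0 < H) (f : ℕ → ℕ) (hf : ∀ k, f k ≠ 0 → et k ≠ 0) (M : ℕ) :
    ∑ u ∈ range M, f (u / H) * (lp c u / (3 * H / 800)) ≤ (upS 982 37 f 10 658 : ℝ) := by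
  refine le_trans ?_ (le_upS (T := fun l => ∑ u ∈ range (l * H), lp c u / (3 * H / 800)) f 658 h)
  rw [← cell (fun u => lp c u / (3 * H / 800)) (fun k => (f k : ℝ)) 10 658]
  rw [← sum_filter_of_ne (p := fun u => u ∈ Ico (10 * H) ((10 + 658) * H))]
  · exact sum_le_sum_of_subset_of_nonneg (fun u hu => (mem_filter.1 hu).2)
      fun u _ _ => mul_nonneg (Nat.cast_nonneg _) (lpn_nonneg H c u)
  · intro u _ hu
    obtain ⟨h1, h2⟩ := et_supp (hf (u / H) fun h0 => hu (by rw [h0, Nat.cast_zero, zero_mul]))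
    exact mem_Ico.2 ⟨(Nat.le_div_iff_mul_le hH).1 h1, (Nat.div_lt_iff_lt_mul hH).1 h2⟩

/-- the main term -/
theorem main_ge {H N' p0 p1 s j c1 c3 c4 : ℕ} (hH : 799000 ≤ H) (h1 : 800 * H ≤ N') (h2 : N' ≤ 800 * H + 799)
    (hp0 : 0 < p0) (hp1 : 0 < p1) (hb0 : p0 * H ≤ 1000 * ((60 * j + 2) * Yw s))
    (hb1 : 1000 * ((60 * j + 2) * Yw s) ≤ p1 * H) (hc : c1 < 60) (t3 : TB H c3) (t4 : TB H c4)
    (hok : okC p0 p1 = true) :
    0.84 * (225 / 16 * H * EU : ℝ) ≤ ∑ u ∈ range (N' + 1), ∑ v ∈ range (N' + 1), if u + v ≤ N' then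
      aw c3 (fun u => et (u / H)) u * aw c4 (fun u => et (u / H)) v * nuw c1 s j (N' - u - v) else 0 := by
  have hH' : (0 : ℝ) < H := by exact_mod_cast (by omega : 0 < H)
  have hp' : (0 : ℝ) < p1 := by exact_mod_cast hp1
  have a0 : (201600000 * p1 * EU : ℝ) ≤ zz 982 37 p0 p1 := by exact_mod_cast Nat.le_of_ble_eq_true hok
  have a1 : (zz 982 37 p0 p1 : ℝ) ≤ _ := t3.low (fun k => et k * hh 982 37 p0 p1 k) (a := 10) (n := 658) (M := N' + 1)
    64800000000000000000 le_rfl (Or.inr (by omega))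
  have a2 : ∀ k, (hh 982 37 p0 p1 k : ℝ) ≤
      ∑ v ∈ range (N' + 1), (et (v / H) * vv p0 p1 (k + v / H) : ℕ) * (lp c4 v / (3 * H / 800)) := fun k => by
    rw [hh_eq]
    refine t4.low (fun l => et l * vv p0 p1 (k + l)) _ (by omega) ?_
    rcases le_total (668 - (k - 122)) (10 + (545 - k)) with h | h
    · exact Or.inl (by omega)
    · refine Or.inr (le_trans (Nat.mul_le_mul_right H (show _ ≤ 800 by omega)) (by omega))
  have a3 : 0.84 * (225 / 16 * H * EU : ℝ) = (3 * H / 800) ^ 2 / (240 * p1 * H) * (201600000 * p1 * EU) := by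
    field_simp
    ring
  have a4 : (0 : ℝ) ≤ (3 * H / 800) ^ 2 / (240 * p1 * H) := by positivity
  rw [a3]
  refine (mul_le_mul_of_nonneg_left (a0.trans a1) a4).trans ?_
  rw [mul_sum]
  refine sum_le_sum fun u _ => ?_
  have a5 := mul_le_mul_of_nonneg_left (a2 (u / H))
    (mul_nonneg a4 (mul_nonneg (Nat.cast_nonneg (et (u / H))) (lpn_nonneg H c3 u)))
  refine le_trans (le_of_eq (by push_cast; ring)) (a5.trans ?_)
  rw [mul_sum]
  refine sum_le_sum fun v _ => le_trans (le_of_eq ?_) (nuw_ge hH h1 h2 hp0 hb0 hb1 hc ?_)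
  · rw [aw_eq, aw_eq]
    push_cast
    field_simp
  · rw [aw_eq, aw_eq]
    exact mul_nonneg (mul_nonneg (Nat.cast_nonneg _) (lp_nonneg _ _)) (mul_nonneg (Nat.cast_nonneg _) (lp_nonneg _ _))

theorem lp_le {N H c : ℕ} (hH : 0 < H) (hN : 48000 * H ≤ N) (hc : c < 60) (u : ℕ) :
    lp c u ≤ max 0 (Real.log N + Real.log (((u / H : ℕ) + 1) / 800)) := by
  unfold lp
  split_ifs with h
  · refine le_trans ?_ (le_max_right _ _)
    have h1 : u < u / H * H + H := Nat.lt_div_mul_add hH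
    have h2 : 800 * (60 * u + c) ≤ N * (u / H + 1) := by
      have h3 := Nat.mul_le_mul_right (u / H + 1) hN
      rw [show 48000 * H * (u / H + 1) = 48000 * (u / H * H + H) by ring] at h3
      omega
    have h3 : (800 : ℝ) * (60 * u + c) ≤ N * ((u / H : ℕ) + 1) := by exact_mod_cast h2
    have h4 : (0 : ℝ) < (60 * u + c : ℕ) := by exact_mod_cast h.pos
    have h5 : (0 : ℝ) < N := by exact_mod_cast (by omega : 0 < N)
    push_cast at h4
    rw [← Real.log_mul h5.ne' (by positivity)]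
    exact Real.log_le_log h4 (by linarith)
  · exact le_max_left _ _

/-- the energy -/
theorem energy_le {N H c : ℕ} (M : ℕ) (hH : 0 < H) (hN : 48000 * H ≤ N) (hL : 52 ≤ Real.log N) (hc : c < 60)
    (t : TB H c) : ∑ u ∈ range M, aw c (fun u => et (u / H)) u ^ 2 ≤
      (0.2736 * Real.log N - 0.24) * (225 / 16 * H * EU : ℝ) := by
  have hH' : (0 : ℝ) < H := by exact_mod_cast hH
  have a1 : (upS 982 37 (fun k => et k * et k) 10 658 : ℝ) ≤ 1026 * EU := by
    exact_mod_cast Nat.le_of_ble_eq_true chk1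
  have a0 : (upS 982 37 (fun k => et k * et k * lg k) 10 658 : ℝ) ≤ 524520000 * EU := by
    exact_mod_cast Nat.le_of_ble_eq_true chk0
  have b1 := (t.up hH (fun k => et k * et k) (fun k h => left_ne_zero_of_mul h) M).trans a1
  have b0 := (t.up hH (fun k => et k * et k * lg k) (fun k h => left_ne_zero_of_mul (left_ne_zero_of_mul h)) M).trans a0
  have c1 := mul_le_mul_of_nonneg_left b1 (show 0 ≤ 3 * (H : ℝ) / 800 * (Real.log N - 52) by
    exact mul_nonneg (by positivity) (by linarith))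
  have c0 := mul_le_mul_of_nonneg_left b0 (show 0 ≤ 3 * (H : ℝ) / 800 / 10000 by positivity)
  refine le_trans ?_ ((add_le_add c1 c0).trans (le_of_eq (by ring)))
  rw [mul_sum, mul_sum, ← sum_add_distrib]
  refine sum_le_sum fun u _ => ?_
  have d1 : lp c u ≤ Real.log N - 52 + lg (u / H) / 10000 := by
    have d2 : (0 : ℝ) ≤ lg (u / H) := Nat.cast_nonneg _
    exact (lp_le hH hN hc u).trans (max_le (by linarith) (by linarith [lg_ge (u / H)]))
  have d2 := mul_le_mul_of_nonneg_left d1 (mul_nonneg (sq_nonneg (et (u / H) : ℝ)) (lp_nonneg c u))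
  rw [aw_eq]
  refine le_trans (le_of_eq (by ring)) (d2.trans (le_of_eq ?_))
  push_cast
  field_simp

/-- **the main term** -/
theorem mainBox (h : PP 60 (10 ^ 21) 0.982 1.019) : MainBox := by
  intro N N' c1 c3 c4 hN e h1 h3 h4 k3 k4
  obtain ⟨H, hH⟩ : ∃ H, H = N' / 800 := ⟨_, rfl⟩
  have a1 : 2 * 10 ^ 18 ≤ H := by omega
  have a2 : 800 * H ≤ N' := by omega
  have a3 : N' ≤ 800 * H + 799 := by omega
  have a4 : 0 < H := by omega
  have t3 := tb_of h a1 h3 k3
  have t4 := tb_of h a1 h4 k4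
  have hL : 52 ≤ Real.log N := by
    have b1 : ((2 : ℝ) ^ 76) ≤ N := by exact_mod_cast le_trans (by norm_num) hN
    have b2 := Real.log_le_log (by positivity) b1
    rw [Real.log_pow] at b2
    push_cast at b2
    linarith [Real.log_two_gt_d9]
  refine ⟨fun u => et (u / H), 225 / 16 * H * EU, ?_, fun u => Nat.cast_nonneg _, fun u hu => ?_, fun s j hs hj => ?_,
    energy_le _ a4 (by omega) hL h3 t3, energy_le _ a4 (by omega) hL h4 t4⟩
  · have b1 : (0 : ℝ) < H := by exact_mod_cast a4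
    have b2 : (0 : ℝ) < EU := by exact_mod_cast (by decide : 0 < EU)
    positivity
  · obtain ⟨b1, b2⟩ := et_supp (l := u / H) fun h0 => hu (Nat.cast_eq_zero.2 h0)
    have b3 := (Nat.le_div_iff_mul_le a4).1 b1
    have b4 := (Nat.div_lt_iff_lt_mul a4).1 b2
    omega
  · obtain ⟨b1, b2⟩ := scale (N := N) (H := H) (by omega) (by omega) (by omega) hs hj
    obtain ⟨p0, p1, b3, b4, b5, b6, b7⟩ := exists_cell b1 b2
    exact main_ge (by omega) a2 a3 b5 b6 b3 b4 h1 t3 t4 b7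

end Cfsg.Agent.Depth.M
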